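import Cfsg.Agent.ChevalleyStructure.E6AdCubic
import Cfsg.Agent.ChevalleyStructure.E6Form.Elim
import Cfsg.Agent.H191.CubicBound_mg
import Cfsg.Agent.H557.ToralTypes
import Cfsg.Agent.ChevalleyStructure.HDiag
import Cfsg.Agent.ChevalleyStructure.Good
import Cfsg.Agent.FastGrp
import Cfsg.Agent.Prune
set_option linter.all false

section
prune_inst 0x7fffe9ffbbfcefffffff7ffffefffffdfdbb3fffefdffdcbffe661ff0bdf5f8a8fcffb8f8bfb12fe1ff7e31454f87b13fbffffffea6bfc7ffffd5ff41ffbffffedf7b50851dc9cb41fbe0fff83f0778e7f3fffffffffdfffffffffffffffffaeffffffffffff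

-- part: H336/LinFour/CubE6Elt
section
prune_inst 0x14004403100000000000010000020240c0001020003000090e00b420a075402004307404a101a0000ceb280780c400000000040402800000a0034000000012080ae4a003624a2040e0007802080000000000000020000000000000000051000000000000
set_option linter.all false
open scoped Cfsg.Agent.FastGrp

/-!
# The root elements `zG r t` of the elimination are the root elements `Z r' (± t)` of the adjoint comparison
-/

set_option autoImplicit false

namespace Cfsg.Agent.H336.LinFour.CubE6

open Cfsg.Lie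
open Cfsg.Agent.ChevalleyStructure.E6Form.Cubic Cfsg.Agent.ChevalleyStructure.E6Form.Table
open Cfsg.Agent.ChevalleyStructure.E6Form.Elim
open Cfsg.Agent.ChevalleyStructure.E6AdTab (P lk st)
open Cfsg.Agent.ChevalleyStructure.E6AdMat (num dec N dec_le_one dec_st dec_xor)
open Cfsg.Agent.ChevalleyStructure.E6Ad (Z Gam coe_Z)
open scoped Matrix

universe u

/-- the correspondence of the roots -/
def corr : List (ℕ × ℤ) := [
  (21, 1), (56, -1), (18, -1), (17, -1), (28, -1), (60, -1), (59, 1), (66, -1), (24, 1), (38, 1), (37, -1), (57,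
  1), (63, -1), (62, 1), (32, 1), (69, 1), (20, 1), (19, 1), (29, 1), (0, -1), (4, -1), (3, -1), (25, 1), (41,
  1), (40, -1), (10, -1), (16, -1), (27, -1), (26, -1), (1, 1), (58, 1), (65, -1), (64, 1), (23, 1), (36, 1),
  (22, -1), (49, -1), (35, 1), (48, 1), (7, 1), (6, -1), (13, 1), (70, 1), (45, -1), (44, -1), (55, -1), (61,
  -1), (31, -1), (30, 1), (46, 1), (68, -1), (67, -1), (71, -1), (42, 1), (52, 1), (51, 1), (2, 1), (39, 1), (9,
  1), (8, -1), (14, 1), (34, -1), (33, 1), (47, 1), (5, -1), (12, 1), (11, -1), (43, -1), (54, -1), (53, -1),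
  (15, -1), (50, 1)]

/-- the check of one root -/
def okk (r r' : ℕ) (s : ℤ) : Bool := wts.all fun a =>
  match (tabr r).find? (fun q => q.2.1 == a) with
  | none => Nat.ble (lk (P r') (st (num a))) 1
  | some q => lk (P r') (st (num a)) == if q.1 = s then st (num q.2.2) else Nat.xor (st (num q.2.2)) 1

theorem corr_ok : ((List.range 72).all fun r => (Nat.blt (corr.getD r (0, 0)).1 72) &&
    (((corr.getD r (0, 0)).2 == 1) || ((corr.getD r (0, 0)).2 == -1)) &&
    okk r (corr.getD r (0, 0)).1 (corr.getD r (0, 0)).2) = true := by decide +kernel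

variable {F : Type u} [Field F]

theorem zG_eq {r : ℕ} (hr : r < 72) (t : F) : ∃ (r' : Fin 72) (c : F), zG r t = Z r' c := by
  have h := forall_roots corr_ok hr
  rw [Bool.and_eq_true, Bool.and_eq_true, Bool.or_eq_true] at h
  obtain ⟨⟨h1, h2⟩, h3⟩ := h
  generalize (corr.getD r (0, 0)).1 = r' at h1 h3
  generalize (corr.getD r (0, 0)).2 = s at h2 h3
  replace h1 : r' < 72 := by
    have := Nat.le_of_ble_eq_true h1
    omega
  rw [beq_iff_eq, beq_iff_eq] at h2
  refine ⟨⟨r', h1⟩, (s : F) * t, ?_⟩
  apply Units.ext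
  rw [coe_zG, coe_Z]
  refine Matrix.ext_of_mulVec_single fun a => ?_
  have e1 : zMat F r t *ᵥ Pi.single a 1 = act (zG r t) (e F a) := rfl
  have hcol : ∀ d, (N F r' *ᵥ Pi.single a 1) d = dec F (lk (P r') (st (num a))) d := by
    intro d
    rw [Matrix.mulVec_single_one]
    rfl
  rw [e1, Matrix.add_mulVec, Matrix.one_mulVec, Matrix.smul_mulVec]
  have h4 := forall_wts h3 a
  cases hf : (tabr r).find? (fun q => q.2.1 == a) with
  | none =>
    rw [hf] at h4
    have h5 : lk (P r') (st (num a)) ≤ 1 := Nat.le_of_ble_eq_true h4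
    rw [List.find?_eq_none] at hf
    rw [act_zG_e_of_not_source hr (fun q hq hqa => hf q hq (by rw [hqa]; exact beq_self_eq_true a))]
    funext d
    rw [Pi.add_apply, Pi.smul_apply, hcol, dec_le_one h5, Pi.zero_apply, smul_zero, add_zero]
    rfl
  | some q =>
    rw [hf] at h4
    have hq : q ∈ tabr r := List.mem_of_find?_eq_some hf
    have hqa : q.2.1 = a := by
      have := List.find?_some hf
      exact beq_iff_eq.1 this
    subst hqa
    rw [act_zG_e_of_source hr hq]
    have h5 : lk (P r') (st (num q.2.1)) = if q.1 = s then st (num q.2.2) else Nat.xor (st (num q.2.2)) 1 :=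
      beq_iff_eq.1 h4
    have hq1 := (tab_facts hr hq).1
    funext d
    rw [Pi.add_apply, Pi.add_apply, Pi.smul_apply, Pi.smul_apply, hcol, h5, smul_eq_mul, smul_eq_mul]
    have e2 : (Pi.single q.2.1 (1 : F) : I27 → F) d = e F q.2.1 d := rfl
    rw [e2]
    congr 1
    by_cases h6 : q.1 = s
    · rw [if_pos h6, dec_st, ← h6]
      have e3 : (Pi.single q.2.2 (1 : F) : I27 → F) d = e F q.2.2 d := rfl
      rw [e3]; ring
    · rw [if_neg h6, dec_xor, dec_st, Pi.neg_apply]
      have e3 : (Pi.single q.2.2 (1 : F) : I27 → F) d = e F q.2.2 d := rfl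
      rw [e3]
      have h7 : s = - q.1 := by
        rcases h2 with h2 | h2 <;> rcases hq1 with hq1 | hq1 <;> rw [h2, hq1] <;> first | rfl | (exact absurd (by rw [h2, hq1]) h6)
      rw [h7]; push_cast; ring

theorem zG_mem {r : ℕ} (hr : r < 72) (t : F) : zG r t ∈ E6univ F := by
  obtain ⟨r', c, h⟩ := zG_eq hr t
  rw [h]
  exact Cfsg.Agent.ChevalleyStructure.E6AdCubic.Z_mem r' c

theorem zG_mem_Gam {r : ℕ} (hr : r < 72) (t : F) : zG r t ∈ Gam F := by
  obtain ⟨r', c, h⟩ := zG_eq hr t
  rw [h]
  exact Cfsg.Agent.ChevalleyStructure.E6Ad.Z_mem_Gam r' c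

end Cfsg.Agent.H336.LinFour.CubE6
end

-- part: H336/LinFour/CubE6
section
prune_inst 0x200000110000000000001000000000000000020000000080c00202020140020043000002100000008098004804004000000010000000000000040000000100008012023000a200020006000000000000000000020000000000000000000000000000000
set_option linter.all false
open scoped Cfsg.Agent.FastGrp

/-!
# Isometries of order two of the cubic form in 27 variables: the `-1`-space has dimension at least 9

`finrank_rad_le`: if `x` is not singular then the radical of `tri x · ·` has dimension at most 9.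
`eq_bot_of_finrank_le`: an involutory isometry with `-1`-space of dimension at most 8 is trivial.
-/

set_option autoImplicit false

namespace Cfsg.Agent.H336.LinFour.CubE6

open Cfsg.Lie Module
open Cfsg.Agent.ChevalleyStructure.E6Form.Cubic Cfsg.Agent.ChevalleyStructure.E6Form.Table
open Cfsg.Agent.ChevalleyStructure.E6Form.Elim
open Cfsg.Agent.H191.CubicBound

universe u

variable {F : Type u} [Field F]

theorem card_J : ∀ l b : I27, nc l b = true → Fintype.card {c : I27 // c = l ∨ (ip l c = 1 ∧ nc b c = false)} = 9 := by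
  decide +kernel

theorem tri_e_right (x v : I27 → F) (d : I27) :
    tri x v (e F d) = ∑ a, if nc d a = true then (sg d a : F) * (x a * v (th d a)) else 0 := by
  rw [tri_comm23, tri_comm12, tri_e_left]

/-- a vector of the radical -/
theorem key {x : I27 → F} {l b : I27} (hl : x l ≠ 0) (h1 : ∀ c, ip l c = 1 → x c = 0) (hb : nc l b = true)
    (hxb : x b ≠ 0) {v : I27 → F} (hv : ∀ u, tri x v u = 0) (h0 : v l = 0)
    (h2 : ∀ c, ip l c = 1 → nc b c = false → v c = 0) : v = 0 := by
  have hN : ∀ c, nc l c = true → v c = 0 := by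
    intro c hc
    obtain ⟨f1, f2, f3, f4, f5⟩ := (th_facts l c).1 hc
    obtain ⟨g1, g2, g3, g4, g5⟩ := (th_facts l (th l c)).1 f2
    have h3 := hv (e F (th l c))
    rw [tri_e_right, Finset.sum_eq_single l] at h3
    · rw [if_pos g1] at h3
      have h4 : th (th l c) l = c := by rw [g4, f3]
      rw [h4] at h3
      rcases mul_eq_zero.1 h3 with h5 | h5
      · exact absurd h5 (sg_ne_zero g1)
      · exact (mul_eq_zero.1 h5).resolve_left hl
    · intro a _ ha
      by_cases h4 : nc (th l c) a = true
      · rw [if_pos h4]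
        rcases ip_cases l a with h5 | h5 | h5
        · exact absurd h5.2.symm ha
        · rw [h1 a h5.1]; ring
        · -- `a = c`
          have h6 : a = th l (th l c) := gq l (th l c) a f2 h5.2.2 h4
          rw [f3] at h6
          subst h6
          obtain ⟨k1, k2, k3, k4, k5⟩ := (th_facts a l).1 f1
          have h7 : th (th l a) a = l := by
            obtain ⟨m1, m2, m3, m4, m5⟩ := (th_facts a (th a l)).1 k2
            rw [← f4, m4, k3]
          rw [h7, h0]; ring
      · rw [if_neg h4]
    · intro h; exact absurd (Finset.mem_univ _) h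
  have hS : ∀ c, ip l c = 1 → nc b c = true → v c = 0 := by
    intro c hc hbc
    obtain ⟨f1, f2, f3, f4, f5⟩ := (th_facts b c).1 hbc
    set s := th b c with hs
    have h3 := hv (e F s)
    obtain ⟨g1, g2, g3, g4, g5⟩ := (th_facts b s).1 f2
    have hsl : nc s l = false := by
      by_contra h
      rw [Bool.not_eq_false] at h
      -- `b`, `l`, `s` pairwise
      have hbl : nc b l = true := ((th_facts l b).1 hb).1
      have h6 : s = th b l := gq b l s hbl f2 (((th_facts s l).1 h).1)
      have h7 : c = l := by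
        rw [← f3, h6]
        exact ((th_facts b l).1 hbl).2.2.1
      rw [h7, ip_self] at hc
      exact absurd hc (by norm_num)
    rw [tri_e_right, Finset.sum_eq_single b] at h3
    · rw [if_pos g1] at h3
      have h4 : th s b = c := by rw [g4, f3]
      rw [h4] at h3
      rcases mul_eq_zero.1 h3 with h5 | h5
      · exact absurd h5 (sg_ne_zero g1)
      · exact (mul_eq_zero.1 h5).resolve_left hxb
    · intro a _ ha
      by_cases h4 : nc s a = true
      · rw [if_pos h4]
        have h5 : v (th s a) = 0 := by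
          obtain ⟨k1, k2, k3, k4, k5⟩ := (th_facts s a).1 h4
          rcases ip_cases l (th s a) with h6 | h6 | h6
          · rw [← h6.2, h0]
          · by_cases h7 : nc b (th s a) = true
            · exfalso
              apply ha
              have h8 : b = th s (th s a) := gq s (th s a) b k2 g1 (((th_facts b (th s a)).1 h7).1)
              rw [h8, k3]
            · exact h2 _ h6.1 (by simpa using h7)
          · exact hN _ h6.2.2
        rw [h5]; ring
      · rw [if_neg h4]
    · intro h; exact absurd (Finset.mem_univ _) h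
  funext c
  rcases ip_cases l c with h3 | h3 | h3
  · rw [← h3.2, h0]; rfl
  · by_cases h4 : nc b c = true
    · exact hS c h3.1 h4
    · exact h2 c h3.1 (by simpa using h4)
  · exact hN c h3.2.2

/-- **the radical of `tri x · ·` has dimension at most 9 if `x` is not singular** (after clearing) -/
theorem finrank_le_nine {x : I27 → F} {l b : I27} (hl : x l ≠ 0) (h1 : ∀ c, ip l c = 1 → x c = 0)
    (hb : nc l b = true) (hxb : x b ≠ 0) (R : Submodule F (I27 → F)) (hR : ∀ v ∈ R, ∀ u, tri x v u = 0) :
    finrank F R ≤ 9 := by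
  let r : R →ₗ[F] ({c : I27 // c = l ∨ (ip l c = 1 ∧ nc b c = false)} → F) :=
    { toFun := fun v c => (v : I27 → F) c
      map_add' := fun _ _ => rfl
      map_smul' := fun _ _ => rfl }
  have hinj : Function.Injective r := by
    rw [← LinearMap.ker_eq_bot, Submodule.eq_bot_iff]
    rintro ⟨v, hv⟩ hv0
    have h0 : ∀ c, (c = l ∨ (ip l c = 1 ∧ nc b c = false)) → v c = 0 := fun c hc =>
      congrFun (LinearMap.mem_ker.1 hv0) ⟨c, hc⟩
    exact Subtype.ext (key hl h1 hb hxb (hR v hv) (h0 l (Or.inl rfl)) fun c hc hc' => h0 c (Or.inr ⟨hc, hc'⟩))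
  have h := LinearMap.finrank_le_finrank_of_injective hinj
  rwa [Module.finrank_fintype_fun_eq_card, card_J l b hb] at h

theorem singular_of_smul {c : F} (a : I27) : Singular (c • e F a) := by
  intro y
  rw [Q_smul_left, singular_e, mul_zero]

/-- **the radical of `tri x · ·` has dimension at most 9 if `x` is not singular** -/
theorem singular_of_finrank (hs : ∃ s : F, s ≠ 0 ∧ s ≠ 1) {x : I27 → F} (R : Submodule F (I27 → F))
    (hR : ∀ v ∈ R, ∀ u, tri x v u = 0) (h10 : 10 ≤ finrank F R) : Singular x := by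
  by_cases hx : x = 0
  · intro y
    have h1 : x = (0 : F) • e F (0, 0, 0) := by rw [hx, zero_smul]
    rw [h1]
    exact singular_of_smul _ y
  obtain ⟨l, hl⟩ : ∃ a, x a ≠ 0 := by
    by_contra h
    push Not at h
    exact hx (funext h)
  obtain ⟨h, hh, h1, h2, -⟩ := clear (E6univ F) l x hl (fun r hr q hq _ _ t => zG_mem hr t)
    (wts.filter fun b => ip l b == 1) (fun b hb => by simpa using (List.mem_filter.1 hb).2)
  have h2' : ∀ b, ip l b = 1 → act h x b = 0 := fun b hb =>
    h2 b (List.mem_filter.2 ⟨mem_wts b, by simpa using hb⟩)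
  by_cases h3 : ∃ b, nc l b = true ∧ act h x b ≠ 0
  · exfalso
    obtain ⟨b, hb, hb'⟩ := h3
    let f : (I27 → F) →ₗ[F] (I27 → F) := Matrix.mulVecLin (h : Matrix I27 I27 F)
    have hf : ∀ v, f v = act h v := fun v => rfl
    have hinj : Function.Injective f := by
      intro v w hvw
      rw [hf, hf] at hvw
      rw [← act_inv_act h v, hvw, act_inv_act]
    have h4 := finrank_le_nine (by rw [h1]; exact hl) h2' hb hb' (R.map f) (by
      rintro _ ⟨v, hv, rfl⟩ u
      rw [hf, ← act_act_inv h u, tri_act hh]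
      exact hR v hv _)
    have h5 : finrank F (R.map f) = finrank F R :=
      (Submodule.equivMapOfInjective f hinj R).finrank_eq.symm
    omega
  · push Not at h3
    have h4 : act h x = x l • e F l := by
      funext d
      rw [Pi.smul_apply, smul_eq_mul]
      rcases ip_cases l d with h5 | h5 | h5
      · rw [← h5.2, h1, e_self, mul_one]
      · rw [h2' d h5.1, e_ne (Ne.symm h5.2.1), mul_zero]
      · rw [h3 d h5.2.2, e_ne (Ne.symm h5.2.1), mul_zero]
    have h5 : x = act h⁻¹ (x l • e F l) := by rw [← h4, act_inv_act]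
    rw [h5]
    exact Singular.mulVec hs (inv_mem hh) (singular_of_smul l)

/-- **An involutory isometry with `-1`-space of dimension at most 8 is trivial.** -/
theorem eq_one_of_finrank_le (h2 : (2 : F) ≠ 0) {g : GL I27 F} (hg : g ∈ E6univ F) (hgg : g * g = 1)
    (U W : Submodule F (I27 → F)) (hU : ∀ v, v ∈ U ↔ act g v = v) (hW : ∀ v, v ∈ W ↔ act g v = -v)
    (h8 : finrank F W ≤ 8) : g = 1 := by
  have hs : ∃ s : F, s ≠ 0 ∧ s ≠ 1 := ⟨-1, neg_ne_zero.2 one_ne_zero, fun h => h2 (by linear_combination -h)⟩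
  have hact : ∀ v, act g (act g v) = v := fun v => by rw [← act_mul, hgg, act_one]
  -- the decomposition
  have hdec : ∀ v : I27 → F, ∃ u ∈ U, ∃ w ∈ W, v = u + w := by
    intro v
    refine ⟨(2 : F)⁻¹ • (v + act g v), ?_, (2 : F)⁻¹ • (v - act g v), ?_, ?_⟩
    · rw [hU, act_smul, act_add, hact, add_comm]
    · rw [hW, act_smul, sub_eq_add_neg, ← neg_one_smul F (act g v), act_add, act_smul, hact, ← smul_neg]
      congr 1
      funext a
      simp only [Pi.add_apply, Pi.smul_apply, Pi.neg_apply, smul_eq_mul]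
      ring
    · rw [← smul_add, add_add_sub_cancel, ← two_smul F v, smul_smul, inv_mul_cancel₀ h2, one_smul]
  have hsup : U ⊔ W = ⊤ := by
    rw [eq_top_iff]
    intro v _
    obtain ⟨u, hu, w, hw, rfl⟩ := hdec v
    exact Submodule.add_mem_sup hu hw
  have hinf : U ⊓ W = ⊥ := by
    rw [eq_bot_iff]
    rintro v ⟨hv, hv'⟩
    have h1 := (hU v).1 hv
    have h3 := (hW v).1 hv'
    rw [h1] at h3
    rw [Submodule.mem_bot]
    funext a
    have h4 := congrFun h3 a
    rw [Pi.neg_apply] at h4
    have h5 : (2 : F) * v a = 0 := by linear_combination h4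
    exact (mul_eq_zero.1 h5).resolve_left h2
  have h27 : finrank F (I27 → F) = 27 := by
    rw [Module.finrank_fintype_fun_eq_card]; decide
  have hdim : finrank F U + finrank F W = 27 := by
    have h1 := Submodule.finrank_sup_add_finrank_inf_eq U W
    rw [hsup, hinf, finrank_top, finrank_bot, h27] at h1
    omega
  -- the signs
  have hneg : ∀ t : F, t = -t → t = 0 := by
    intro t ht
    have h5 : (2 : F) * t = 0 := by linear_combination ht
    exact (mul_eq_zero.1 h5).resolve_left h2
  have hn1 : ∀ x y z : I27 → F, tri (-x) y z = - tri x y z := by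
    intro x y z
    rw [← neg_one_smul F x, tri_smul_left, neg_one_mul]
  have hn3 : ∀ x y z : I27 → F, tri x y (-z) = - tri x y z := by
    intro x y z
    rw [← neg_one_smul F z, Cfsg.Agent.H191.CubicBound.tri_smul_right, neg_one_mul]
  have hn2 : ∀ x y z : I27 → F, tri x (-y) z = - tri x y z := by
    intro x y z
    rw [tri_comm23, hn3, tri_comm23]
  have hWUU : ∀ x ∈ W, ∀ u ∈ U, ∀ u' ∈ U, tri x u u' = 0 := by
    intro x hx u hu u' hu'
    apply hneg
    have h1 := tri_act hg x u u'
    rw [(hW x).1 hx, (hU u).1 hu, (hU u').1 hu', hn1] at h1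
    exact h1.symm
  have hWWW : ∀ x ∈ W, ∀ y ∈ W, ∀ z ∈ W, tri x y z = 0 := by
    intro x hx y hy z hz
    apply hneg
    have h1 := tri_act hg x y z
    rw [(hW x).1 hx, (hW y).1 hy, (hW z).1 hz, hn1, hn2, hn3, neg_neg] at h1
    exact h1.symm
  -- all vectors of `W` are singular
  have hsing : ∀ x ∈ W, Singular x := by
    intro x hx
    let T : U →ₗ[F] (W →ₗ[F] F) :=
      { toFun := fun u => (triLin x u).comp W.subtype
        map_add' := fun u u' => by
          rw [Submodule.coe_add, map_add, LinearMap.add_comp]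
        map_smul' := fun s u => by
          rw [Submodule.coe_smul, map_smul, LinearMap.smul_comp, RingHom.id_apply] }
    have h1 := LinearMap.finrank_range_add_finrank_ker T
    have h3 : finrank F (LinearMap.range T) ≤ finrank F W := by
      refine (Submodule.finrank_le _).trans ?_
      rw [Module.finrank_linearMap, finrank_self, mul_one]
    let R : Submodule F (I27 → F) := (LinearMap.ker T).map U.subtype
    have h4 : finrank F R = finrank F (LinearMap.ker T) :=
      (Submodule.equivMapOfInjective _ U.injective_subtype _).finrank_eq.symm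
    refine singular_of_finrank hs R ?_ (by omega)
    rintro _ ⟨⟨u, hu⟩, hu', rfl⟩ y
    rw [SetLike.mem_coe, LinearMap.mem_ker] at hu'
    obtain ⟨u', hu'', w, hw, rfl⟩ := hdec y
    change tri x u (u' + w) = 0
    rw [Cfsg.Agent.H191.CubicBound.tri_add_right, hWUU x hx u hu u' hu'', zero_add]
    exact congrArg (fun f : (W →ₗ[F] F) => f ⟨w, hw⟩) hu'
  have htri : ∀ x ∈ W, ∀ y ∈ W, ∀ z, tri x y z = 0 := by
    intro x hx y hy z
    have h1 := Q_add_left x y z
    rw [hsing x hx z, hsing y hy z, hsing _ (W.add_mem hx hy) z, zero_add, zero_add] at h1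
    exact h1.symm
  -- `W = 0`
  have hW0 : ∀ x ∈ W, x = 0 := by
    intro x hx
    by_contra hx0
    have h1 := finrank_le_of_rad hx0 U (by
      intro u hu y
      obtain ⟨u', hu', w, hw, rfl⟩ := hdec y
      rw [Cfsg.Agent.H191.CubicBound.tri_add_right, hWUU x hx u hu u' hu', zero_add, tri_comm23]
      exact htri x hx w hw u)
    omega
  apply eq_one_of_act
  intro a
  obtain ⟨u, hu, w, hw, h1⟩ := hdec (e F a)
  rw [hW0 w hw, add_zero] at h1
  rw [h1]
  exact (hU u).1 hu

end Cfsg.Agent.H336.LinFour.CubE6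
end

-- part: H336/LinFour/CubE6Cent
section
prune_inst 0x16004403100000008000010000020240c0001020020000188e0084208014302004301400690100000c8b2907804000000000050402800000a003c000000012080a952023210ae041e0007800080000000000000020000000000000000010000000000000
set_option linter.all false
open scoped Cfsg.Agent.FastGrp

/-!
# The centre of the group generated by the root elements in dimension 27 has no element of order two
-/

set_option autoImplicit false

namespace Cfsg.Agent.H336.LinFour.CubE6

open Cfsg Cfsg.Lie Module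
open Cfsg.Agent.ChevalleyStructure.E6Form.Cubic Cfsg.Agent.ChevalleyStructure.E6Form.Table
open Cfsg.Agent.ChevalleyStructure.E6Form.Elim

universe u

/-! ### the centre -/

theorem sep_ok : (wts.all fun l => wts.all fun d => (l == d) || (List.range 72).any fun r =>
    ((tabr r).any fun q => q.2.1 == d) && (tabr r).all fun q => !(q.2.1 == l)) = true := by decide +kernel

theorem sep {l d : I27} (h : l ≠ d) : ∃ r < 72, (∃ q ∈ tabr r, q.2.1 = d) ∧ ∀ q ∈ tabr r, q.2.1 ≠ l := by
  have h1 := forall_wts (forall_wts sep_ok l) d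
  rw [Bool.or_eq_true, beq_iff_eq] at h1
  have h2 := h1.resolve_left h
  rw [List.any_eq_true] at h2
  obtain ⟨r, hr, h3⟩ := h2
  rw [Bool.and_eq_true, List.any_eq_true, List.all_eq_true] at h3
  obtain ⟨⟨q, hq, hq'⟩, h4⟩ := h3
  refine ⟨r, List.mem_range.1 hr, ⟨q, hq, beq_iff_eq.1 hq'⟩, fun q' hq' hl => ?_⟩
  have := h4 q' hq'
  rw [hl] at this
  simp at this

theorem conn_ok : (wts.all fun l => wts.all fun d => wts.any fun c => (ip l c == 1) && (ip c d == 1)) = true := by
  decide +kernel

theorem conn (l d : I27) : ∃ c, ip l c = 1 ∧ ip c d = 1 := by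
  have h1 := forall_wts (forall_wts conn_ok l) d
  rw [List.any_eq_true] at h1
  obtain ⟨c, -, h2⟩ := h1
  rw [Bool.and_eq_true, beq_iff_eq, beq_iff_eq] at h2
  exact ⟨c, h2⟩

theorem exists_nc (l : I27) : ∃ c, nc l c = true := by
  revert l; decide +kernel

variable {F : Type u} [Field F]

/-- an element of order two commuting with the root elements is trivial -/
theorem central {z : GL I27 F} (hz : z ∈ E6univ F) (hzz : z * z = 1) (hc : ∀ r < 72, ∀ t : F, zG r t * z = z * zG r t) :
    z = 1 := by
  -- diagonal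
  have hdiag : ∀ l d, l ≠ d → act z (e F l) d = 0 := by
    intro l d hld
    obtain ⟨r, hr, ⟨q, hq, hqd⟩, hl⟩ := sep hld
    have h1 : act (zG r 1) (act z (e F l)) = act z (e F l) := by
      rw [← act_mul, hc r hr, act_mul, act_zG_e_of_not_source hr hl]
    have h2 := act_zG_target hr hq 1 (act z (e F l))
    rw [h1, hqd, one_mul] at h2
    have h3 : (q.1 : F) * act z (e F l) d = 0 := by
      have h4 : act z (e F l) q.2.2 + (q.1 : F) * act z (e F l) d = act z (e F l) q.2.2 + 0 := by
        rw [add_zero]; exact h2.symm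
      exact add_left_cancel h4
    have hs0 : (q.1 : F) ≠ 0 := by rcases (tab_facts hr hq).1 with hs | hs <;> rw [hs] <;> simp
    exact (mul_eq_zero.1 h3).resolve_left hs0
  have hdiag' : ∀ l, act z (e F l) = act z (e F l) l • e F l := by
    intro l
    funext d
    rw [Pi.smul_apply, smul_eq_mul]
    by_cases h : l = d
    · subst h; rw [e_self, mul_one]
    · rw [hdiag l d h, e_ne (Ne.symm h), mul_zero]
  set lam : I27 → F := fun l => act z (e F l) l with hlam
  have hact : ∀ l, act z (e F l) = lam l • e F l := hdiag'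
  have hsq : ∀ l, lam l * lam l = 1 := by
    intro l
    have h1 : act z (act z (e F l)) = e F l := by rw [← act_mul, hzz, act_one]
    rw [hact, act_smul, hact, smul_smul] at h1
    have h2 := congrFun h1 l
    rwa [Pi.smul_apply, e_self, smul_eq_mul, mul_one] at h2
  have hadj : ∀ l b, ip l b = 1 → lam l = lam b := by
    intro l b hlb
    obtain ⟨r, hr, q, hq, hql, hqb⟩ := exists_root hlb
    have hs0 : (q.1 : F) ≠ 0 := by rcases (tab_facts hr hq).1 with hs | hs <;> rw [hs] <;> simp
    have h1 : act (zG r 1) (act z (e F l)) = act z (act (zG r 1) (e F l)) := by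
      rw [← act_mul, ← act_mul, hc r hr]
    have h2 := act_zG_e_of_source hr hq (1 : F)
    rw [hql, hqb, one_mul] at h2
    rw [hact, act_smul, h2, act_add, act_smul, hact, hact] at h1
    have h3 := congrFun h1 b
    have hne : l ≠ b := by
      rintro rfl
      rw [ip_self] at hlb
      exact absurd hlb (by norm_num)
    simp only [Pi.smul_apply, Pi.add_apply, smul_eq_mul, e_self, e_ne (a := l) (Ne.symm hne)] at h3
    have h4 : (q.1 : F) * (lam l - lam b) = 0 := by linear_combination h3
    exact sub_eq_zero.1 ((mul_eq_zero.1 h4).resolve_left hs0)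
  have hall : ∀ l b, lam l = lam b := by
    intro l b
    obtain ⟨c, h1, h2⟩ := conn l b
    exact (hadj l c h1).trans (hadj c b h2)
  have hone : ∀ l, lam l = 1 := by
    intro l
    obtain ⟨c, hlc⟩ := exists_nc l
    have h1 := tri_act hz (e F l) (e F c) (e F (th l c))
    rw [hact, hact, hact, tri_smul_left, tri_smul_mid, Cfsg.Agent.H191.CubicBound.tri_smul_right, hall c l,
      hall (th l c) l] at h1
    have h2 : tri (e F l) (e F c) (e F (th l c)) ≠ 0 := by
      rw [tri_e_e, if_pos hlc, e_self, mul_one]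
      exact sg_ne_zero hlc
    have h3 : (lam l * (lam l * lam l) - 1) * tri (e F l) (e F c) (e F (th l c)) = 0 := by
      linear_combination h1
    have h4 := (mul_eq_zero.1 h3).resolve_right h2
    rw [hsq, mul_one] at h4
    exact sub_eq_zero.1 h4
  apply eq_one_of_act
  intro a
  rw [hact, hone, one_smul]

end Cfsg.Agent.H336.LinFour.CubE6
end

-- part: H512/LinFour/RankF4
section
prune_inst 0x14004400000000000000000000020244c0001000023000019000a40020217000000074004c01800800a0a001000004000000140402000000a00000000000000000a500202000004040000008084000000000000000000000000000000051000000000000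
set_option linter.all false
open scoped Cfsg.Agent.FastGrp

/-!
# The ranks of `t - 1` on the Lie algebra for the involutions `t` of `F4(q)`, `q` odd (after helper351's file for E8)

Involutions are toral (helper557: `toral_F4`); a toral involution acts on the root vectors by a nonzero sign character
of the root lattice, which takes the value `-1` on `16` or `28` roots.
-/

set_option autoImplicit false

namespace Cfsg.Agent.H512.LinFour.RankF4

open Cfsg Cfsg.Lie Matrix
open Cfsg.Agent.ChevalleyStructure Cfsg.Agent.ChevalleyStructure.HDiag Cfsg.Agent.ChevalleyStructure.Columns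

/-- the coefficients of the roots in the simple roots -/
def RC : List (List ℤ) := [[-2, -4, -3, -2],
  [-2, -4, -3, -1],
  [-2, -4, -2, -1],
  [-2, -3, -2, -1],
  [-2, -2, -2, -1],
  [-2, -2, -1, -1],
  [-2, -2, -1, 0],
  [-1, -3, -2, -1],
  [-1, -2, -2, -1],
  [-1, -2, -1, -1],
  [-1, -2, -1, 0],
  [-1, -1, -1, -1],
  [-1, -1, -1, 0],
  [-1, -1, 0, 0],
  [-1, 0, 0, 0],
  [0, -2, -2, -1],
  [0, -2, -1, -1],
  [0, -2, -1, 0],
  [0, -1, -1, -1],
  [0, -1, -1, 0],
  [0, -1, 0, 0],
  [0, 0, -1, -1],
  [0, 0, -1, 0],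
  [0, 0, 0, -1],
  [0, 0, 0, 1],
  [0, 0, 1, 0],
  [0, 0, 1, 1],
  [0, 1, 0, 0],
  [0, 1, 1, 0],
  [0, 1, 1, 1],
  [0, 2, 1, 0],
  [0, 2, 1, 1],
  [0, 2, 2, 1],
  [1, 0, 0, 0],
  [1, 1, 0, 0],
  [1, 1, 1, 0],
  [1, 1, 1, 1],
  [1, 2, 1, 0],
  [1, 2, 1, 1],
  [1, 2, 2, 1],
  [1, 3, 2, 1],
  [2, 2, 1, 0],
  [2, 2, 1, 1],
  [2, 2, 2, 1],
  [2, 3, 2, 1],
  [2, 4, 2, 1],
  [2, 4, 3, 1],
  [2, 4, 3, 2]]

/-- the coefficients of the roots in the simple roots -/
def rc (s j : ℕ) : ℤ := (RC.getD s []).getD j 0

/-- the roots with odd coefficient at the `j`-th simple root -/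
def Ms : List ℕ := [2190433353600, 18812898130056, 218222832852579, 138339380726718]

/-- the roots on which the character `n` is `-1`, first `k` simple roots only -/
def Xr (n : ℕ) : ℕ → ℕ
  | 0 => 0
  | k + 1 => Nat.xor (Xr n k) (if n.testBit k then Ms.getD k 0 else 0)

/-- the number of the bits below `N` -/
def cnt (X : ℕ) : ℕ → ℕ
  | 0 => 0
  | k + 1 => cnt X k + (X.testBit k).toNat

theorem cnt_eq (X N : ℕ) : cnt X N = ((Finset.range N).filter fun s => X.testBit s = true).card := by
  induction N with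
  | zero => rfl
  | succ N ih =>
    rw [cnt, ih, Finset.range_add_one, Finset.filter_insert]
    by_cases h : X.testBit N = true
    · rw [if_pos h, Finset.card_insert_of_notMem (by simp), h]; rfl
    · rw [if_neg h, Bool.eq_false_iff.2 h]; rfl

theorem tab_bits : ∀ j < 4, ∀ s < 48, (Ms.getD j 0).testBit s = decide (rc s j % 2 ≠ 0) := by
  decide +kernel

theorem tab_lin : ∀ i < 4, ∀ s < 48, car chevF4 i s =
    ∑ j ∈ Finset.range 4, rc s j * car chevF4 i (chevF4.simple j) := by
  decide +kernel

theorem cartan_eq (D : ChevalleyDatum) (i s : ℕ) : D.cartan i s = car D i s := rfl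

theorem tab_simple : ∀ j < 4, chevF4.simple j < 48 := by decide +kernel

theorem tab_cnt : ∀ n < 16, n ≠ 0 → cnt (Xr n 4) 48 = 16 ∨ cnt (Xr n 4) 48 = 28 := by
  decide +kernel

/-! ### the diagonal subgroup -/

universe u

variable {F : Type u} [Field F]

/-- the elements of the diagonal subgroup -/
theorem exists_dmat' (D : ChevalleyDatum)
    (hD : D ∈ [chevG2, chevB2, chevD4, chevF4, chevE6, chevE7, chevE8])
    (g : GL D.Idx F) (hg : g ∈ D.diagonalSubgroup F) :
    ∃ c : ℕ → Fˣ, (g : Matrix D.Idx D.Idx F) =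
      dmat D F (fun s => ((∏ i ∈ Finset.range D.rank, c i ^ D.cartan i s : Fˣ) : F)) := by
  obtain ⟨c, hc, hw⟩ := Cfsg.Agent.S1034.result D hD g hg
  classical
  let c' : ℕ → Fˣ := fun i => if h : c i = 0 then 1 else Units.mk0 (c i) h
  have hc' : ∀ i < D.rank, (c' i : F) = c i := by
    intro i hi
    have h : ¬ c i = 0 := hc i hi
    show ((if h : c i = 0 then 1 else Units.mk0 (c i) h : Fˣ) : F) = c i
    rw [dif_neg h]; rfl
  refine ⟨c', ?_⟩
  have key : ∀ n ≤ D.rank, 
      D.wordMat F ((List.range n).flatMap fun i => D.hWord (D.simple i) (c i)) =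
        dmat D F (fun s => ((∏ i ∈ Finset.range n, c' i ^ D.cartan i s : Fˣ) : F)) := by
    intro n
    induction n with
    | zero =>
      intro _
      simp only [Finset.range_zero, Finset.prod_empty, Units.val_one]
      rw [dmat_one]
      rfl
    | succ n ih =>
      intro hn
      rw [List.range_succ, List.flatMap_append, wordMat_append, ih (by omega), List.flatMap_singleton]
      have h2 : D.wordMat F (D.hWord (D.simple n) (c n)) = dmat D F (fun s => c n ^ (D.cartan n s)) :=
        Cfsg.Agent.S1033.result D hD n (by omega) (c n) (hc n (by omega))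
      rw [h2, dmat_mul]
      congr 1
      funext s
      rw [Finset.prod_range_succ, Units.val_mul, Units.val_zpow_eq_zpow_val, hc' n (by omega)]
  rw [hw, key D.rank le_rfl]

theorem prod_zpow_sum {G ι : Type*} [CommGroup G] (a : G) (S : Finset ι) (f : ι → ℤ) :
    ∏ i ∈ S, a ^ f i = a ^ ∑ i ∈ S, f i := by
  classical
  induction S using Finset.induction_on with
  | empty => simp
  | insert i S hi ih => rw [Finset.prod_insert hi, Finset.sum_insert hi, ih, _root_.zpow_add]

/-- the character of a root from the characters of the simple roots -/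
theorem char_eq {D : ChevalleyDatum} (c : ℕ → Fˣ) {s : ℕ}
    (hlin : ∀ i < 4, car D i s = ∑ j ∈ Finset.range 4, rc s j * car D i (D.simple j)) :
    ∏ i ∈ Finset.range 4, c i ^ D.cartan i s =
      ∏ j ∈ Finset.range 4, (∏ i ∈ Finset.range 4, c i ^ D.cartan i (D.simple j)) ^ rc s j := by
  have h1 : ∀ j, (∏ i ∈ Finset.range 4, c i ^ D.cartan i (D.simple j)) ^ rc s j =
      ∏ i ∈ Finset.range 4, c i ^ (rc s j * car D i (D.simple j)) := by
    intro j
    rw [← Finset.prod_zpow]
    refine Finset.prod_congr rfl fun i _ => ?_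
    rw [← _root_.zpow_mul, mul_comm, cartan_eq]
  simp only [h1]
  rw [Finset.prod_comm]
  refine Finset.prod_congr rfl fun i hi => ?_
  rw [prod_zpow_sum, cartan_eq, hlin i (Finset.mem_range.1 hi)]

/-- the sign of a root -/
theorem sign_eq (n : ℕ) {s : ℕ} (hs : s < 48) : ∀ k ≤ 4,
    ∏ j ∈ Finset.range k, (if n.testBit j then (-1 : Fˣ) else 1) ^ rc s j =
      if (Xr n k).testBit s then -1 else 1 := by
  intro k
  induction k with
  | zero => intro _; simp [Xr]
  | succ k ih =>
    intro hk
    rw [Finset.prod_range_succ, ih (by omega)]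
    have hX : (Xr n (k + 1)).testBit s = ((Xr n k).testBit s ^^ (n.testBit k && decide (rc s k % 2 ≠ 0))) := by
      rw [← tab_bits k (by omega) s hs]
      show (Xr n k ^^^ (if n.testBit k then Ms.getD k 0 else 0)).testBit s = _
      rw [Nat.testBit_xor]
      congr 1
      cases n.testBit k
      · simp
      · simp
    rw [hX]
    have h3 : (if n.testBit k then (-1 : Fˣ) else 1) ^ rc s k =
        if (n.testBit k && decide (rc s k % 2 ≠ 0)) then -1 else 1 := by
      cases n.testBit k
      · simp
      · simp only [Bool.true_and, if_true]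
        rcases Int.emod_two_eq_zero_or_one (rc s k) with h | h
        · rw [(Int.even_iff.2 h).neg_one_zpow]; simp [h]
        · rw [(Int.odd_iff.2 h).neg_one_zpow]; simp [h]
    rw [h3]
    cases (Xr n k).testBit s <;> cases (n.testBit k && decide (rc s k % 2 ≠ 0)) <;> simp

theorem exists_bits (b : ℕ → Fˣ) (hb : ∀ j < 4, b j * b j = 1) : ∃ n < 16, ∀ j < 4, b j = if n.testBit j then -1 else 1 := by
  classical
  refine ⟨Nat.ofBits fun k : Fin 4 => decide (b k = -1), Nat.ofBits_lt_two_pow _, fun j hj => ?_⟩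
  rw [Nat.testBit_ofBits_lt _ _ hj]
  have h2 : (b j : F) * b j = 1 := by
    have := congrArg (Units.val) (hb j hj)
    rwa [Units.val_mul, Units.val_one] at this
  rcases mul_self_eq_one_iff.1 h2 with h3 | h3
  · have h4 : b j = 1 := Units.ext h3
    by_cases h5 : b j = -1
    · simp [h5]
    · rw [h4] at h5 ⊢
      simp [h5]
  · have h4 : b j = -1 := Units.ext (by rw [h3, Units.val_neg, Units.val_one])
    simp [h4]

/-- **the rank of `t - 1` for a toral involution** -/
theorem rank_diag (h2 : (2 : F) ≠ 0) {t : GL chevF4.Idx F} (ht : t ∈ chevF4.diagonalSubgroup F) (htt : t * t = 1)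
    (h1 : t ≠ 1) : ((t : Matrix chevF4.Idx chevF4.Idx F) - 1).rank = 16 ∨
      ((t : Matrix chevF4.Idx chevF4.Idx F) - 1).rank = 28 := by
  classical
  obtain ⟨c, hc⟩ := exists_dmat' chevF4 (by simp) t ht
  let χ : ℕ → Fˣ := fun s => ∏ i ∈ Finset.range 4, c i ^ chevF4.cartan i s
  have hc' : (t : Matrix chevF4.Idx chevF4.Idx F) = dmat chevF4 F (fun s => (χ s.val : F)) := hc
  have hsq : ∀ s < 48, χ s * χ s = 1 := by
    intro s hs
    have h3 := congrArg (fun g : GL chevF4.Idx F => (g : Matrix chevF4.Idx chevF4.Idx F)) htt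
    simp only [Units.val_mul, Units.val_one, hc'] at h3
    rw [dmat_mul] at h3
    have h4 := congrFun (congrFun h3 (Sum.inr ⟨s, hs⟩)) (Sum.inr ⟨s, hs⟩)
    rw [dmat_def, Matrix.diagonal_apply_eq, Matrix.one_apply_eq] at h4
    apply Units.ext
    rw [Units.val_mul, Units.val_one]
    exact h4
  obtain ⟨n, hn, hbits⟩ := exists_bits (fun j => χ (chevF4.simple j)) (fun j hj => hsq _ (tab_simple j hj))
  have hχ : ∀ s < 48, χ s = if (Xr n 4).testBit s then -1 else 1 := by
    intro s hs
    rw [← sign_eq n hs 4 le_rfl]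
    show ∏ i ∈ Finset.range 4, c i ^ chevF4.cartan i s = _
    rw [char_eq c (fun i hi => tab_lin i hi s hs)]
    refine Finset.prod_congr rfl fun j hj => ?_
    have := hbits j (Finset.mem_range.1 hj)
    rw [← this]
  have hn0 : n ≠ 0 := by
    rintro rfl
    apply h1
    apply Units.ext
    rw [hc', Units.val_one, ← dmat_one]
    congr 1
    funext s
    rw [hχ s.val s.isLt]
    have : Xr 0 4 = 0 := by decide +kernel
    rw [this]
    simp
  have hneg : (-1 : F) ≠ 1 := by
    intro h
    apply h2
    have h3 : (2 : F) = 1 - (-1) := by ring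
    rw [h3, h, sub_self]
  have hmat : (t : Matrix chevF4.Idx chevF4.Idx F) - 1 =
      Matrix.diagonal (Sum.elim (fun _ => (0 : F)) (fun s : Fin chevF4.nroots => if (Xr n 4).testBit s.val then -2 else 0)) := by
    rw [hc', dmat_def, ← Matrix.diagonal_one, Matrix.diagonal_sub]
    congr 1
    funext i
    rcases i with i | s
    · simp
    · show (χ s.val : F) - 1 = _
      rw [hχ s.val s.isLt]
      show _ = if (Xr n 4).testBit s.val then (-2 : F) else 0
      cases (Xr n 4).testBit s.val
      · simp
      · simp only [if_true, Units.val_neg, Units.val_one]; ring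
  have hcard : ((t : Matrix chevF4.Idx chevF4.Idx F) - 1).rank = cnt (Xr n 4) 48 := by
    rw [hmat, Matrix.rank_diagonal, cnt_eq, Fintype.card_subtype]
    symm
    refine Finset.card_bij (fun s hs => Sum.inr ⟨s, Finset.mem_range.1 (Finset.mem_filter.1 hs).1⟩) ?_ ?_ ?_
    · intro s hs
      rw [Finset.mem_filter]
      refine ⟨Finset.mem_univ _, ?_⟩
      show (if (Xr n 4).testBit s then (-2 : F) else 0) ≠ 0
      rw [if_pos (Finset.mem_filter.1 hs).2]
      exact neg_ne_zero.2 h2
    · intro s hs s' hs' h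
      exact congrArg Fin.val (Sum.inr.inj h)
    · intro i hi
      rw [Finset.mem_filter] at hi
      rcases i with i | s
      · exact absurd rfl hi.2
      · have h3 : (if (Xr n 4).testBit s.val then (-2 : F) else 0) ≠ 0 := hi.2
        refine ⟨s.val, Finset.mem_filter.2 ⟨Finset.mem_range.2 s.isLt, ?_⟩, rfl⟩
        by_contra h4
        exact h3 (if_neg h4)
  rw [hcard]
  exact tab_cnt n hn hn0

/-- **the rank of `t - 1` for an involution of `F4(q)`, `q` odd** -/
theorem rank_inv [Fintype F] (ho : Odd (Fintype.card F)) (h2 : (2 : F) ≠ 0) {t : ↥(chevF4.group F)} (ht : t * t = 1)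
    (h1 : t ≠ 1) : (((t : GL chevF4.Idx F) : Matrix chevF4.Idx chevF4.Idx F) - 1).rank = 16 ∨
      (((t : GL chevF4.Idx F) : Matrix chevF4.Idx chevF4.Idx F) - 1).rank = 28 := by
  obtain ⟨g, hg⟩ := Cfsg.Agent.H557.ToralTypes.toral_F4 ho ht
  have hs : ((g * t * g⁻¹ : ↥(chevF4.group F)) : GL chevF4.Idx F) ∈ chevF4.diagonalSubgroup F :=
    Subgroup.mem_subgroupOf.1 hg
  have hss : (g * t * g⁻¹) * (g * t * g⁻¹) = 1 := by
    rw [show (g * t * g⁻¹) * (g * t * g⁻¹) = g * (t * t) * g⁻¹ by group, ht, mul_one, mul_inv_cancel]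
  have hne : ((g * t * g⁻¹ : ↥(chevF4.group F)) : GL chevF4.Idx F) ≠ 1 := by
    intro h
    apply h1
    have h3 : g * t * g⁻¹ = 1 := Subtype.ext h
    have h4 : t = g⁻¹ * (g * t * g⁻¹) * g := by group
    rw [h4, h3, mul_one, inv_mul_cancel]
  have h3 := rank_diag h2 hs (congrArg Subtype.val hss) hne
  have h4 : (((g * t * g⁻¹ : ↥(chevF4.group F)) : GL chevF4.Idx F) : Matrix chevF4.Idx chevF4.Idx F) - 1 =
      ((g : GL chevF4.Idx F) : Matrix chevF4.Idx chevF4.Idx F) *
        ((((t : GL chevF4.Idx F) : Matrix chevF4.Idx chevF4.Idx F) - 1) *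
          (((g : GL chevF4.Idx F)⁻¹ : GL chevF4.Idx F) : Matrix chevF4.Idx chevF4.Idx F)) := by
    rw [Matrix.sub_mul, Matrix.mul_sub, one_mul, ← Units.val_mul (g : GL chevF4.Idx F), mul_inv_cancel, Units.val_one,
      ← Units.val_mul, ← Units.val_mul, ← mul_assoc]
    rfl
  have hd : ∀ x : GL chevF4.Idx F, IsUnit (x : Matrix chevF4.Idx chevF4.Idx F).det := fun x =>
    (Matrix.isUnit_iff_isUnit_det _).1 x.isUnit
  have h5 : ((((g * t * g⁻¹ : ↥(chevF4.group F)) : GL chevF4.Idx F) : Matrix chevF4.Idx chevF4.Idx F) - 1).rank =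
      (((t : GL chevF4.Idx F) : Matrix chevF4.Idx chevF4.Idx F) - 1).rank := by
    rw [h4, Matrix.rank_mul_eq_right_of_isUnit_det _ _ (hd _), Matrix.rank_mul_eq_left_of_isUnit_det _ _ (hd _)]
  rwa [h5] at h3

end Cfsg.Agent.H512.LinFour.RankF4

private theorem dce_efad2da9d8ef : _root_.True := by
  try have : _root_.True := by simp only [_root_.Cfsg.Agent.H512.LinFour.RankF4.cnt.eq_def]
  try have : _root_.True := by simp only [_root_.Cfsg.Agent.H512.LinFour.RankF4.Xr.eq_1]
  try have : _root_.True := by simp only [_root_.Cfsg.Agent.H512.LinFour.RankF4.Xr.eq_def]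
  try have : _root_.True := by simp only [_root_.Cfsg.Agent.H512.LinFour.RankF4.Xr.eq_2]
  try have : _root_.True := by simp only [_root_.Cfsg.Agent.H512.LinFour.RankF4.cnt.eq_1]
  try have : _root_.True := by simp only [_root_.Cfsg.Agent.H512.LinFour.RankF4.cnt.eq_2]
  exact _root_.True.intro
end
end
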